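import Cfsg.Agent.H847.Bs.Defs2

/-!
# S2187, classical rows, non-commuting preimage: definitions and statements (helper557)

* `NC p G E` : `E ≤ G` contains the scalars of `G`, is elementary abelian modulo scalars and not commutative;
* `Hyps p G E M` : `M` contains the elements of determinant one of the (honest) centralizers in `G` of the hyperplanes of `E`;
* `LinearNC p`, `UnitaryNC p` : the statements.
-/

set_option autoImplicit false

namespace Cfsg.Agent.H557.Gp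

open Cfsg.Agent.H847.Bs

universe u v

variable {F : Type u} {V : Type v} [Field F] [AddCommGroup V] [Module F V]

/-- `g` is a scalar -/
def IsSc (g : V ≃ₗ[F] V) : Prop := ∃ c : F, ∀ v, g v = c • v

/-- `E ≤ G` contains the scalars of `G`, is elementary abelian modulo scalars and not commutative -/
structure NC (p : ℕ) (G E : Subgroup (V ≃ₗ[F] V)) : Prop where
  le : E ≤ G
  scal : ∀ g ∈ G, (∃ c : F, ∀ v, g v = c • v) → g ∈ E
  pow : ∀ x ∈ E, ∃ c : F, ∀ v, (x ^ p) v = c • v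
  comm : ∀ x ∈ E, ∀ y ∈ E, ∃ c : F, ∀ v, x (y v) = c • y (x v)
  nc : ∃ x ∈ E, ∃ y ∈ E, x * y ≠ y * x

/-- `M` contains the elements of determinant one of the centralizers in `G` of the hyperplanes of `E` -/
def Hyps (p : ℕ) (G E M : Subgroup (V ≃ₗ[F] V)) : Prop :=
  ∀ D ≤ E, (∀ g ∈ G, (∃ c : F, ∀ v, g v = c • v) → g ∈ D) → D.relIndex E = p →
    ∀ g ∈ G, LinearMap.det (g : V →ₗ[F] V) = 1 → (∀ f ∈ D, g * f = f * g) → g ∈ M

/-- **the linear row, non-commuting preimage** -/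
def LinearNC (p : ℕ) : Prop :=
  ∀ {F : Type u} {V : Type v} [Field F] [Finite F] [AddCommGroup V] [Module F V] [Module.Finite F V],
    (7 ≤ p ∨ (2 : F) ≠ 0) → ∀ {E M : Subgroup (V ≃ₗ[F] V)}, NC p ⊤ E → Hyps p ⊤ E M →
    (∀ W : Submodule F V, (∀ f ∈ E, ∀ w ∈ W, f w ∈ W) → W = ⊥ ∨ W = ⊤) →
    ∀ g : V ≃ₗ[F] V, LinearMap.det (g : V →ₗ[F] V) = 1 → g ∈ M

/-- **the unitary row, non-commuting preimage** -/
def UnitaryNC (p : ℕ) : Prop :=
  ∀ {F : Type u} {V : Type v} [Field F] [Finite F] [AddCommGroup V] [Module F V] [Module.Finite F V] {r : ℕ}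
    {Φ : Frm F V}, IsHerm r Φ → (7 ≤ p ∨ (2 : F) ≠ 0) → ∀ {E M : Subgroup (V ≃ₗ[F] V)}, NC p Φ.Iso E →
    Hyps p Φ.Iso E M → (∀ W : Submodule F V, (∀ f ∈ E, ∀ w ∈ W, f w ∈ W) → Φ.TI W → W = ⊥) →
    ∀ g ∈ Φ.Iso, LinearMap.det (g : V →ₗ[F] V) = 1 → g ∈ M

end Cfsg.Agent.H557.Gp
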